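import Cfsg.Agent.ReeSThree.Psl
import Cfsg.Agent.ReeSThree.Glue
import Cfsg.Agent.ReeSThree.Fusion
import Cfsg.Agent.ReeSThree.CaseB
import Cfsg.Agent.ReeSThree.Linear
import Cfsg.Agent.ReeSThree.Unitary
import Cfsg.Agent.ReeSThree.FourFree

/-!
# Goldschmidt groups and the section `S₃`
-/

set_option autoImplicit false

namespace Cfsg.Agent.ReeSThree

open Subgroup

universe u

variable {G : Type u} [Group G] [Finite G]

/-- A group of Ree type has an involution inverting an element of order three. -/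
theorem ree_involves (hR : Cfsg.IsReeType G) : Cfsg.Involves (Equiv.Perm (Fin 3)) G := by
  refine involves_three fun hni => ?_
  obtain ⟨hsimp, hna, t, K, n, hn, ht, hidx, hdp, F, _, _, hq, ⟨e⟩⟩ := hR
  haveI := hsimp
  have hK := pslFacts hq e
  have hq27 : 27 ≤ Fintype.card F := by
    rw [hq]
    calc 27 = 3 ^ 3 := by norm_num
      _ ≤ 3 ^ (2 * n + 1) := Nat.pow_le_pow_right (by norm_num) (by omega)
  have h := ctr_of_product ht hdp
  obtain ⟨hall, r, a, s, hc⟩ := fusion_data hna h hK hq27 hidx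
  obtain ⟨-, O, hO, hOa, hOab, hOmem, -⟩ :=
    hK.torus ⟨a, hc.a_mem⟩ (by rw [Subgroup.orderOf_mk]; exact hc.a_order)
  by_cases hcent : ∀ x ∈ O, r * (x : G) = (x : G) * r
  · refine case_b hni hall h hK hq27 hc (O.map K.subtype) (map_subtype_le O) ?_ ?_ ?_
    · rintro - ⟨x, hx, rfl⟩
      exact congrArg Subtype.val (hOa x hx)
    · rwa [card_map_of_injective K.subtype_injective]
    · rintro - ⟨x, hx, rfl⟩
      exact hcent x hx
  · push Not at hcent
    obtain ⟨x₀, hx₀, hne⟩ := hcent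
    exact case_a hni h hK hq27 hc O hO (fun x hx => congrArg Subtype.val (hOa x hx)) hOab
      (fun c hca ho => hOmem c (Subtype.ext hca) ho) hx₀ hne

/-- The criterion for the section `S₃`. -/
theorem sthree_iff (hG : Cfsg.IsGoldschmidtGroup G) :
    ¬ Cfsg.Involves (Equiv.Perm (Fin 3)) G ↔ Cfsg.IsSuzukiOrPSL2OddPowerThree G := by
  constructor
  · intro h3
    rcases hG with hR | ⟨F, _, _, n, hn, hq, ⟨e⟩⟩ | hS | ⟨F, _, _, n, hn, hq, ⟨e⟩⟩ |
      ⟨F, _, _, q, hq, h5, h8, ⟨e⟩⟩ | hJ
    · exact absurd (ree_involves hR) h3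
    · exact absurd (psl_even_involves hq (by omega) e) h3
    · exact Or.inl hS
    · exact absurd (psu_involves hn hq e) h3
    · have hodd : Odd (Fintype.card F) := Nat.odd_iff.2 (by omega)
      have hd : 3 ∣ Fintype.card F := by
        by_contra hnd
        exact h3 (psl_odd_involves hodd hnd e)
      obtain ⟨p, hp⟩ := CharP.exists F
      obtain ⟨k, hpp, hk⟩ := FiniteField.card F p
      have hp3 : 3 = p := (Nat.prime_dvd_prime_iff_eq Nat.prime_three hpp).1
        (Nat.prime_three.dvd_of_dvd_pow (hk ▸ hd))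
      rw [← hp3] at hk
      obtain ⟨j, hj | hj⟩ : ∃ j, (k : ℕ) = 2 * j ∨ (k : ℕ) = 2 * j + 1 := by
        exact ⟨(k : ℕ) / 2, by omega⟩
      · exfalso
        rw [hj, pow_mul] at hk
        have : (3 ^ 2) ^ j % 8 = 1 := by rw [Nat.pow_mod]; norm_num
        omega
      · exact Or.inr ⟨F, inferInstance, inferInstance, j, by rw [hk, hj], ⟨e⟩⟩
    · exact absurd (j1_involves hJ) h3
  · rintro (hS | ⟨F, _, _, n, hq, ⟨e⟩⟩)
    · exact suzuki_not_involves hS
    · exact psl_three_not_involves hq e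

end Cfsg.Agent.ReeSThree
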