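import Cfsg.Agent.ReeSThree.Basic
import Cfsg.Agent.ClassicalMax.BinaryInvol

/-!
# The facts about `PSL₂(3^(2n+1))` used for the groups of Ree type
-/

set_option autoImplicit false
set_option linter.unusedSectionVars false
set_option linter.style.haveILetI false
set_option linter.unusedSimpArgs false

namespace Cfsg.Agent.ReeSThree

open Matrix Cfsg.Agent.Spec.Two Cfsg.Agent.RootSub.SL2Gen Cfsg.Agent.ClassicalMax.Binary
open scoped MatrixGroups

universe u v

/-- The facts only depend on the isomorphism type. -/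
theorem pslFacts_congr {K : Type u} [Group K] {L : Type v} [Group L] (e : K ≃* L) {q : ℕ}
    (h : PslFacts L q) : PslFacts K q where
  q_mod := h.q_mod
  three_dvd := h.three_dvd
  q_pow := h.q_pow
  card_K := by rw [Nat.card_congr e.toEquiv]; exact h.card_K
  invol_conj a b ha hb := by
    obtain ⟨c, hc⟩ := isConj_iff.1 (h.invol_conj (e a) (e b) (by rw [e.orderOf_eq, ha])
      (by rw [e.orderOf_eq, hb]))
    exact isConj_iff.2 ⟨e.symm c, e.injective (by simp [hc])⟩
  four a ha := by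
    obtain ⟨b, σ, hb, hσ, h1, h2, h3, h4, h5⟩ := h.four (e a) (by rw [e.orderOf_eq, ha])
    refine ⟨e.symm b, e.symm σ, by rw [e.symm.orderOf_eq, hb], by rw [e.symm.orderOf_eq, hσ],
      e.injective (by simp [h1]), fun hh => h2 (by rw [← hh]; simp), e.injective (by simp [h3]),
      e.injective (by simp [h4]), fun c hca hcb => ?_⟩
    have hca' : e c * e a = e a * e c := by rw [← map_mul, hca, map_mul]
    have hcb' : e c * b = b * e c := by
      have := congrArg e hcb
      simpa using this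
    rcases h5 (e c) hca' hcb' with hc | hc | hc | hc
    · exact Or.inl (e.injective (by simp [hc]))
    · exact Or.inr (Or.inl (e.injective hc))
    · exact Or.inr (Or.inr (Or.inl (e.injective (by simp [hc]))))
    · exact Or.inr (Or.inr (Or.inr (e.injective (by simp [hc]))))
  torus a ha := by
    obtain ⟨hc, O, hO, hOa, hOab, hodd, hx⟩ := h.torus (e a) (by rw [e.orderOf_eq, ha])
    refine ⟨?_, O.comap e.toMonoidHom, ?_, fun x hxO => e.injective (by simpa using hOa _ hxO),
      fun x hxO y hyO => e.injective (by simpa using hOab _ hxO _ hyO),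
      fun c hca hco => hodd (e c) (by rw [← map_mul, hca, map_mul]) (by rw [e.orderOf_eq]; exact hco),
      fun x hxO hx1 => ?_⟩
    · rw [← hc]
      refine Nat.card_congr (e.toEquiv.subtypeEquiv fun c => ?_)
      simp only [Subgroup.mem_centralizer_singleton_iff, MulEquiv.toEquiv_eq_coe, MulEquiv.coe_toEquiv]
      rw [← map_mul, ← map_mul, e.apply_eq_iff_eq]
    · rw [← hO]
      congr 1
      exact Nat.card_congr (e.toEquiv.subtypeEquiv fun c => Iff.rfl)
    · obtain ⟨h1, h2, g, hg⟩ := hx (e x) hxO (fun hh => hx1 (e.injective (by simp [hh])))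
      refine ⟨fun c => ?_, fun g hgO => ?_, ⟨e.symm g, e.injective (by simp [hg])⟩⟩
      · simp only [Subgroup.mem_comap, MulEquiv.coe_toMonoidHom, map_mul]
        rw [← h1 (e c), ← map_mul, ← map_mul, e.apply_eq_iff_eq]
      · rcases h2 (e g) (by simpa using hgO) with hh | hh
        · exact Or.inl (e.injective (by simp [hh]))
        · exact Or.inr (e.injective (by simp [hh]))
  three u hu := by
    obtain ⟨U, huU, hcU, h3, hab, hcen, hN⟩ := h.three (e u) (by rw [e.orderOf_eq, hu])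
    refine ⟨U.comap e.toMonoidHom, huU, ?_, fun w hw => e.injective (by simpa using h3 _ hw),
      fun x hx y hy => e.injective (by simpa using hab _ hx _ hy), fun w hw hw1 => ?_, ?_⟩
    · rw [← hcU]
      exact Nat.card_congr (e.toEquiv.subtypeEquiv fun c => Iff.rfl)
    · ext c
      have := hcen (e w) hw (fun hh => hw1 (e.injective (by simp [hh])))
      rw [Subgroup.mem_comap, MulEquiv.coe_toMonoidHom, ← this, Subgroup.mem_centralizer_singleton_iff,
        Subgroup.mem_centralizer_singleton_iff, ← map_mul, ← map_mul, e.apply_eq_iff_eq]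
    · rw [← hN]
      congr 1
      refine Nat.card_congr (e.toEquiv.subtypeEquiv fun c => ?_)
      simp only [Subgroup.mem_normalizer_iff, SetLike.mem_coe, Subgroup.mem_comap, MulEquiv.coe_toMonoidHom,
        MulEquiv.toEquiv_eq_coe, MulEquiv.coe_toEquiv]
      refine ⟨fun hh y => ?_, fun hh y => by simpa using hh (e y)⟩
      have := hh (e.symm y)
      simpa using this

variable {F : Type u} [Field F] [Fintype F]

local notation "L₂" => Matrix.ProjectiveSpecialLinearGroup (Fin 2) F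
local notation "M₂" => Matrix (Fin 2) (Fin 2) F
local notation "q" => Fintype.card F

theorem q_facts {n : ℕ} (hq : q = 3 ^ (2 * n + 1)) : q % 8 = 3 ∧ 3 ∣ q ∧ Odd q := by
  refine ⟨?_, hq ▸ dvd_pow_self 3 (by omega), hq ▸ (by decide : Odd 3).pow⟩
  rw [hq, pow_succ, pow_mul, Nat.mul_mod, Nat.pow_mod]
  norm_num

theorem card_two (ho : Odd q) : Nat.card L₂ * 2 = q * (q ^ 2 - 1) := by
  have h := card_G (F := F)
  rw [Linear.gcd_two_of_odd ho] at h
  rw [mul_comm, h, mul_assoc, show (1 : ℕ) = 1 ^ 2 from (one_pow 2).symm, Nat.sq_sub_sq, one_pow,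
    mul_comm (q - 1)]

/-- The centraliser of an involution is a torus extended by a reflection. -/
theorem card_centralizer_invol (ho : Odd q) {X : SL(2, F)} (hx : orderOf (π X) = 2) :
    Nat.card (Subgroup.centralizer ({π X} : Set L₂)) = 2 * Nat.card (torG X) := by
  obtain ⟨-, ht4, -, -⟩ := trace_invol ho hx
  set C := Subgroup.centralizer ({π X} : Set L₂)
  have hTC : torG X ≤ C := fun t ht =>
    Subgroup.mem_centralizer_singleton_iff.2 (torG_commute_self ht4 ht)
  obtain ⟨g, hg, hgT⟩ := exists_refl ho hx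
  have h2 : ((torG X).subgroupOf C).index = 2 := by
    rw [Subgroup.index_eq_two_iff]
    refine ⟨⟨g, Subgroup.mem_centralizer_singleton_iff.2 hg⟩, fun b => ?_⟩
    simp only [Subgroup.mem_subgroupOf, Subgroup.coe_mul]
    by_cases hb : (b : L₂) ∈ torG X
    · exact Or.inr ⟨hb, fun h => hgT (by simpa using mul_mem (inv_mem hb) h)⟩
    · exact Or.inl ⟨refl_mul (Subgroup.mem_centralizer_singleton_iff.1 b.2) hb hg hgT, hb⟩
  rw [← ((torG X).subgroupOf C).index_mul_card, h2,
    Nat.card_congr (Subgroup.subgroupOfEquivOfLe hTC).toEquiv]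

theorem torG_order (ho : Odd q) (h8 : q % 8 = 3) {X : SL(2, F)} (hx : orderOf (π X) = 2) :
    2 * Nat.card (torG X) = q + 1 := by
  obtain ⟨-, ht4, -, -⟩ := trace_invol ho hx
  have h2 : 2 ∣ Nat.card (torG X) := by
    have := Subgroup.orderOf_dvd_natCard _ (self_mem_torG X)
    rwa [hx] at this
  have h := card_torG ht4
  rw [Linear.gcd_two_of_odd ho] at h
  obtain ⟨j, hj⟩ := h2
  omega

/-- The odd part of the torus of an involution. -/
theorem torus_facts (ho : Odd q) (h8 : q % 8 = 3) (a : L₂) (ha : orderOf a = 2) :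
    Nat.card (Subgroup.centralizer ({a} : Set L₂)) = q + 1 ∧
    ∃ O : Subgroup L₂, Nat.card O * 4 = q + 1 ∧ (∀ x ∈ O, x * a = a * x) ∧
      (∀ x ∈ O, ∀ y ∈ O, x * y = y * x) ∧
      (∀ c : L₂, c * a = a * c → Odd (orderOf c) → c ∈ O) ∧
      ∀ x ∈ O, x ≠ 1 → (∀ c : L₂, c * x = x * c ↔ c ∈ O ∨ c * a ∈ O) ∧
        (∀ g : L₂, g * x * g⁻¹ ∈ O → g * x * g⁻¹ = x ∨ g * x * g⁻¹ = x⁻¹) ∧
        ∃ g : L₂, g * x * g⁻¹ = x⁻¹ := by
  classical
  obtain ⟨X, rfl⟩ := π_surjective a
  obtain ⟨-, ht4, hxx, hx1⟩ := trace_invol ho ha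
  have hcT := torG_order ho h8 ha
  refine ⟨by rw [card_centralizer_invol ho ha, hcT], ?_⟩
  set m := (q + 1) / 4 with hm
  have hmodd : Odd m := Nat.odd_iff.2 (by omega)
  have hT2m : Nat.card (torG X) = 2 * m := by omega
  haveI := isCyclic_torG ht4
  obtain ⟨τ', hτ'⟩ := IsCyclic.exists_ofOrder_eq_natCard (α := torG X)
  set τ : L₂ := (τ' : L₂) with hτdef
  have hτ : orderOf τ = 2 * m := by rw [hτdef, Subgroup.orderOf_coe, hτ', hT2m]
  have hτT : Subgroup.zpowers τ = torG X := Subgroup.eq_of_le_of_card_ge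
    (Subgroup.zpowers_le.2 τ'.2) (by rw [Nat.card_zpowers, hτ, hT2m])
  have hτm : τ ^ m = π X := by
    have ho2 : orderOf (τ ^ m) = 2 := by
      rw [orderOf_pow_of_dvd (by omega) (hτ ▸ dvd_mul_left m 2), hτ,
        Nat.mul_div_cancel _ (by omega)]
    refine (torus_invol ho ha (pow_mem τ'.2 m) ?_).resolve_left fun h => by
      rw [h, orderOf_one] at ho2; omega
    have := pow_orderOf_eq_one (τ ^ m)
    rwa [ho2, pow_two] at this
  set O := Subgroup.zpowers (τ ^ 2) with hO
  have hOT : O ≤ torG X := Subgroup.zpowers_le.2 (pow_mem τ'.2 2)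
  have hOc : Nat.card O = m := by
    rw [hO, Nat.card_zpowers, orderOf_pow_of_dvd two_ne_zero (hτ ▸ dvd_mul_right 2 m), hτ,
      Nat.mul_div_cancel_left _ two_pos]
  have hsplit : ∀ c ∈ torG X, c ∈ O ∨ c * π X ∈ O := by
    intro c hc
    rw [← hτT] at hc
    obtain ⟨k, rfl⟩ := hc
    show τ ^ k ∈ O ∨ τ ^ k * π X ∈ O
    rcases Int.even_or_odd k with ⟨j, rfl⟩ | hk
    · exact Or.inl ⟨j, by show (τ ^ 2) ^ j = τ ^ (j + j); rw [← _root_.zpow_natCast, ← _root_.zpow_mul]; ring_nf⟩
    · right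
      obtain ⟨j, hj⟩ : Even (k + (m : ℤ)) := hk.add_odd (by exact_mod_cast hmodd)
      refine ⟨j, ?_⟩
      show (τ ^ 2) ^ j = τ ^ k * π X
      rw [← hτm, ← _root_.zpow_natCast τ m, ← _root_.zpow_add, hj, ← _root_.zpow_natCast, ← _root_.zpow_mul]
      ring_nf
  have hcomm : ∀ x ∈ O, x * π X = π X * x := fun x hx => torG_commute_self ht4 (hOT hx)
  refine ⟨O, by omega, hcomm, fun x hx y hy => torG_comm ht4 (hOT hx) (hOT hy), fun c hc hco => ?_,
    fun x hxO hx1' => ?_⟩
  · have hcT' : c ∈ torG X := by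
      by_contra hcn
      obtain ⟨hcc, hc1⟩ := refl_invol ho ha hc hcn
      rw [orderOf_eq_two' hcc hc1] at hco
      exact (by decide : ¬ Odd 2) hco
    obtain ⟨j, hj⟩ := hco
    have e : c = (c ^ (j + 1)) ^ 2 := by
      rw [← pow_mul, show (j + 1) * 2 = 2 * j + 1 + 1 by ring, pow_succ, ← hj, pow_orderOf_eq_one,
        one_mul]
    obtain ⟨k, hk⟩ : c ^ (j + 1) ∈ Subgroup.zpowers τ := hτT ▸ pow_mem hcT' _
    rw [e, ← hk]
    exact ⟨k, by
      show (τ ^ 2) ^ k = (τ ^ k) ^ 2
      rw [← _root_.zpow_natCast, ← _root_.zpow_natCast, ← _root_.zpow_mul, ← _root_.zpow_mul, mul_comm]⟩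
  · have hox : orderOf x ∣ m := hOc ▸ Subgroup.orderOf_dvd_natCard _ hxO
    have hox2 : 2 < orderOf x := by
      have h0 := orderOf_pos x
      have h1 : orderOf x ≠ 1 := fun h => hx1' (orderOf_eq_one_iff.1 h)
      have h2 : orderOf x ≠ 2 := fun h => by
        have := hmodd.of_dvd_nat hox
        rw [h] at this
        exact (by decide : ¬ Odd 2) this
      omega
    have hcent : ∀ c : L₂, c * x = x * c ↔ c ∈ torG X := fun c => by
      rw [← centralizer_of_mem_torG ht4 (hOT hxO) hox2, Subgroup.mem_centralizer_singleton_iff]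
    refine ⟨fun c => ⟨fun h => hsplit c ((hcent c).1 h), fun h => (hcent c).2 ?_⟩, fun g hgO => ?_, ?_⟩
    · rcases h with h | h
      · exact hOT h
      · have := mul_mem (hOT h) (self_mem_torG X)
        rwa [mul_assoc, hxx, mul_one] at this
    · obtain ⟨Z, rfl⟩ := π_surjective x
      have hcop : (orderOf (π Z)).Coprime q := by
        refine Nat.Coprime.coprime_dvd_left (hox.trans ?_) (Nat.coprime_self_add_left.2 (Nat.coprime_one_left q) : (q + 1).Coprime q)
        exact Dvd.intro 4 (by omega)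
      have htZ := trace_sq_ne_four hx1' hcop
      have hCZ : Subgroup.centralizer ({π Z} : Set L₂) = torG Z :=
        centralizer_π (trace_ne_zero_of_orderOf hox2)
      refine conj_pm htZ ?_
      rw [← hCZ, Subgroup.mem_centralizer_singleton_iff]
      exact (hcent _).2 (hOT hgO)
    · obtain ⟨g, hg, hgT⟩ := exists_refl ho ha
      obtain ⟨hgg, -⟩ := refl_invol ho ha hg hgT
      obtain ⟨h, -⟩ := refl_invol ho ha (g := g * x)
        (by rw [mul_assoc, hcomm x hxO, ← mul_assoc, hg, mul_assoc])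
        (fun h => hgT (by simpa using mul_mem h (inv_mem (hOT hxO))))
      refine ⟨g, ?_⟩
      rw [inv_eq_of_mul_eq_one_right hgg]
      refine eq_inv_of_mul_eq_one_left ?_
      rw [mul_assoc]
      exact h

/-- The four-group of an involution and an element of order three cycling it. -/
theorem four_facts (ho : Odd q) (a : L₂) (ha : orderOf a = 2) : ∃ b σ : L₂, orderOf b = 2 ∧
    orderOf σ = 3 ∧ a * b = b * a ∧ b ≠ a ∧ σ * a * σ⁻¹ = b ∧ σ * b * σ⁻¹ = a * b ∧
    ∀ c : L₂, c * a = a * c → c * b = b * c → c = 1 ∨ c = a ∨ c = b ∨ c = a * b := by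
  obtain ⟨X, rfl⟩ := π_surjective a
  obtain ⟨b, hb, hbT⟩ := exists_refl ho ha
  obtain ⟨hbb, hb1⟩ := refl_invol ho ha hb hbT
  obtain ⟨-, -, hxx, hx1⟩ := trace_invol ho ha
  obtain ⟨σ, h1, h2⟩ := exists_cycle ho ha hb hbT
  have hba : b ≠ π X := fun h => hbT (h ▸ self_mem_torG X)
  refine ⟨b, σ, orderOf_eq_two' hbb hb1, ?_, hb.symm, hba, h1, h2,
    fun c hc1 hc2 => four_group ho ha hb hbT hc1 hc2⟩
  set x := π X with hxdef
  have h3 : σ * (x * b) * σ⁻¹ = x := by
    calc σ * (x * b) * σ⁻¹ = σ * x * σ⁻¹ * (σ * b * σ⁻¹) := by group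
      _ = b * (x * b) := by rw [h1, h2]
      _ = b * x * b := by group
      _ = x * (b * b) := by rw [hb]; group
      _ = x := by rw [hbb, mul_one]
  have hxb : x * b ≠ b := fun h => hx1 (mul_eq_right.1 h)
  haveI : Fact (Nat.Prime 3) := ⟨Nat.prime_three⟩
  refine orderOf_eq_prime ?_ (fun h => hba (by rw [← h1, h]; simp))
  have hfix : ∀ y : L₂, σ ^ 3 * y * (σ ^ 3)⁻¹ = σ * (σ * (σ * y * σ⁻¹) * σ⁻¹) * σ⁻¹ := fun y => by
    simp only [pow_succ, pow_zero, one_mul, _root_.mul_inv_rev, mul_assoc]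
  have hcx : σ ^ 3 * x = x * σ ^ 3 := by
    rw [← mul_inv_eq_iff_eq_mul, hfix, h1, h2, h3]
  have hcb : σ ^ 3 * b = b * σ ^ 3 := by
    rw [← mul_inv_eq_iff_eq_mul, hfix, h2, h3, h1]
  have hσ : σ * σ ^ 3 * σ⁻¹ = σ ^ 3 := by group
  rcases four_group ho ha hb hbT hcx hcb with h | h | h | h
  · exact h
  · rw [h, h1] at hσ; exact absurd hσ hba
  · rw [h, h2] at hσ; exact absurd hσ hxb
  · rw [h, h3] at hσ; exact absurd (mul_eq_left.1 hσ.symm) hb1

/-- The Borel subgroup has index `q + 1`. -/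
theorem card_borP (ho : Odd q) : Nat.card (borP F) * 2 = q * (q - 1) := by
  classical
  set B := (borP F).comap (π (F := F)) with hB
  have h10 : ∀ X : B, (X : SL(2, F)) 1 0 = 0 := fun X => π_mem_borP.1 X.2
  have h00 : ∀ X : B, (X : SL(2, F)) 0 0 ≠ 0 := fun X h0 => by
    have := det_eq (X : SL(2, F))
    rw [h10, h0, zero_mul, mul_zero, sub_zero] at this
    exact zero_ne_one this
  let mkX : Fˣ × F → SL(2, F) := fun p => ⟨!![(p.1 : F), p.2; 0, (p.1 : F)⁻¹], by simp [Matrix.det_fin_two]⟩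
  let f : B ≃ Fˣ × F :=
    { toFun := fun X => (Units.mk0 _ (h00 X), (X : SL(2, F)) 0 1)
      invFun := fun p => ⟨mkX p, π_mem_borP.2 rfl⟩
      left_inv := fun X => by
        apply Subtype.ext
        have hd := det_eq (X : SL(2, F))
        rw [h10, mul_zero, sub_zero] at hd
        apply sl_ext <;> simp [mkX, h10]
        exact (eq_inv_of_mul_eq_one_right hd).symm
      right_inv := fun p => by ext <;> rfl }
  have hc : Nat.card B = (q - 1) * q := by
    rw [Nat.card_congr f, Nat.card_prod, Nat.card_eq_fintype_card, Nat.card_eq_fintype_card,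
      Fintype.card_units]
  have h1 := B.card_mul_index
  rw [hc, hB, Subgroup.index_comap_of_surjective _ π_surjective, card_SL_eq,
    ← (borP F).card_mul_index, Linear.gcd_two_of_odd ho, ← mul_assoc] at h1
  have := Nat.eq_of_mul_eq_mul_right (Nat.pos_of_ne_zero Subgroup.index_ne_zero_of_finite) h1
  rw [mul_comm, ← this, mul_comm]

theorem normalizer_upG : Subgroup.normalizer (upG F : Set L₂) = borP F := by
  ext g
  obtain ⟨X, rfl⟩ := π_surjective g
  rw [π_mem_borP]
  constructor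
  · intro hg
    obtain ⟨b, hb⟩ := (Subgroup.mem_normalizer_iff.1 hg (upP 1)).1 ⟨1, rfl⟩
    rw [upP, upP, ← map_inv, ← map_mul, ← map_mul] at hb
    obtain ⟨c, hc2, he⟩ := π_eq_iff.1 hb.symm
    rw [conj_uu] at he
    have e10 := congrFun (congrFun he 1) 0
    simp at e10
    have hc : c ≠ 0 := fun h0 => by simp [h0] at hc2
    simp_all
  · intro h
    refine Subgroup.mem_normalizer_iff.2 fun y => ?_
    constructor
    · rintro ⟨b, rfl⟩
      exact ⟨_, (conj_upP_of_mem_borP h b).symm⟩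
    · rintro ⟨b, hb⟩
      have h' : (X⁻¹ : SL(2, F)) 1 0 = 0 := by
        simp [Matrix.SpecialLinearGroup.coe_inv, Matrix.adjugate_fin_two, h]
      refine ⟨(X⁻¹ : SL(2, F)) 0 0 * (X⁻¹ : SL(2, F)) 0 0 * b, ?_⟩
      rw [← conj_upP_of_mem_borP h', map_inv, hb]
      group

/-- The subgroup of exponent three through an element of order three. -/
theorem three_facts {n : ℕ} (hq : q = 3 ^ (2 * n + 1)) (u : L₂) (hu : orderOf u = 3) :
    ∃ U : Subgroup L₂, u ∈ U ∧ Nat.card U = q ∧ (∀ w ∈ U, w ^ 3 = 1) ∧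
      (∀ x ∈ U, ∀ y ∈ U, x * y = y * x) ∧
      (∀ w ∈ U, w ≠ 1 → Subgroup.centralizer ({w} : Set L₂) = U) ∧
      Nat.card (Subgroup.normalizer (U : Set L₂)) * 2 = q * (q - 1) := by
  classical
  obtain ⟨-, -, ho⟩ := q_facts hq
  haveI : Fact (Nat.Prime 3) := ⟨Nat.prime_three⟩
  have h3 : (3 : F) = 0 := by
    obtain ⟨p, hp⟩ := CharP.exists F
    obtain ⟨f, hpp, hf⟩ := FiniteField.card F p
    have hp3 : p = 3 := (Nat.prime_dvd_prime_iff_eq hpp Nat.prime_three).1
      (hpp.dvd_of_dvd_pow (m := 3) (n := 2 * n + 1) (by rw [← hq, hf]; exact dvd_pow_self p f.pos.ne'))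
    subst hp3
    exact_mod_cast CharP.cast_eq_zero F 3
  obtain ⟨P, hP⟩ := (IsPGroup.of_card (p := 3) (n := 1)
    ((Nat.card_zpowers u).trans (hu.trans (pow_one 3).symm))).exists_le_sylow
  obtain ⟨Q, hQ⟩ := (IsPGroup.of_card ((card_upG (F := F)).trans hq)).exists_le_sylow
  have hqP : q ∣ Nat.card P := by
    rw [Sylow.card_eq_multiplicity P, ← Sylow.card_eq_multiplicity Q, ← card_upG (F := F)]
    exact Subgroup.card_dvd_of_le hQ
  obtain ⟨a, ha⟩ := exists_upP_mem hqP
  set U := (upG F).map (MulAut.conj a).toMonoidHom with hUdef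
  have hcard : Nat.card U = q := by
    rw [hUdef, Subgroup.card_map_of_injective (f := (MulAut.conj a).toMonoidHom) (MulEquiv.injective _),
      card_upG]
  have hUP : U = (P : Subgroup L₂) := by
    refine Subgroup.eq_of_le_of_card_ge ?_ ?_
    · rintro _ ⟨_, ⟨b, rfl⟩, rfl⟩
      exact ha b
    · exact hcard ▸ Nat.le_of_dvd Fintype.card_pos (card_dvd_of_isPGroup hq (by omega) P.isPGroup')
  refine ⟨U, hUP ▸ hP (Subgroup.mem_zpowers u), hcard, ?_, ?_, ?_, ?_⟩
  · rintro _ ⟨_, ⟨b, rfl⟩, rfl⟩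
    rw [← map_pow, pow_succ, pow_two, upP_add, upP_add, show b + b + b = 0 by linear_combination b * h3,
      upP_zero, map_one]
  · rintro _ ⟨_, ⟨b, rfl⟩, rfl⟩ _ ⟨_, ⟨c, rfl⟩, rfl⟩
    rw [← map_mul, ← map_mul, upP_add, upP_add, add_comm]
  · rintro _ ⟨_, ⟨b, rfl⟩, rfl⟩ hw
    have hb : b ≠ 0 := fun h => hw (by rw [h, upP_zero, map_one])
    ext c
    rw [Subgroup.mem_centralizer_singleton_iff]
    constructor
    · intro hc
      have hc' : a⁻¹ * c * a * upP b = upP b * (a⁻¹ * c * a) := by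
        have h' : c * (a * upP b * a⁻¹) = a * upP b * a⁻¹ * c := hc
        calc a⁻¹ * c * a * upP b = a⁻¹ * (c * (a * upP b * a⁻¹)) * a := by group
          _ = a⁻¹ * (a * upP b * a⁻¹ * c) * a := by rw [h']
          _ = upP b * (a⁻¹ * c * a) := by group
      obtain ⟨d, hd⟩ := eq_upP_of_commute hb hc'
      exact ⟨_, ⟨d, rfl⟩, by rw [← hd]; simp [MulAut.conj_apply]; group⟩
    · rintro ⟨_, ⟨d, rfl⟩, rfl⟩
      rw [← map_mul, ← map_mul, upP_add, upP_add, add_comm]
  · rw [hUdef, ← Subgroup.map_equiv_normalizer_eq (upG F) (MulAut.conj a), normalizer_upG,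
      Subgroup.card_map_of_injective (f := (MulAut.conj a).toMonoidHom) (MulEquiv.injective _), card_borP ho]

/-- The facts for `PSL₂(3^(2n+1))`. -/
theorem pslFacts {F : Type} [Field F] [Fintype F] {n : ℕ} (hq : Fintype.card F = 3 ^ (2 * n + 1))
    {K : Type*} [Group K] (e : K ≃* Matrix.ProjectiveSpecialLinearGroup (Fin 2) F) :
    PslFacts K (Fintype.card F) := by
  obtain ⟨h8, h3, ho⟩ := q_facts hq
  exact pslFacts_congr e
    { q_mod := h8
      three_dvd := h3
      q_pow := ⟨_, hq⟩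
      card_K := card_two ho
      invol_conj := fun a b ha hb => isConj_iff.2 (invol_conj ho ha hb)
      four := four_facts ho
      torus := torus_facts ho h8
      three := three_facts hq }

end Cfsg.Agent.ReeSThree
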